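import Mathlib

/-!
Number of involutions in a group with a nonabelian subgroup of odd order (helper24, for S0454).
-/

namespace Cfsg.Agent.LyZ

namespace P1

/-- An odd number that is not 1 is at least 3. -/
theorem three_le {n : ℕ} (h : Odd n) (h1 : n ≠ 1) : 3 ≤ n := by
  obtain ⟨m, rfl⟩ := h
  omega

/-- Case where `x` normalises `K`. -/
theorem coset_norm {G : Type*} [Group G] [Finite G] (K : Subgroup G)
    (hodd : Odd (Nat.card K)) (hna : ∃ a ∈ K, ∃ b ∈ K, a * b ≠ b * a) (x : G) (hx : x * x = 1)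
    (hnorm : ∀ k ∈ K, x * k * x ∈ K) :
    3 * Nat.card {k : G // k ∈ K ∧ x * k * x = k⁻¹} ≤ Nat.card K := by
  classical
  have hxi : x⁻¹ = x := inv_eq_of_mul_eq_one_left hx
  -- conj
  have hmul : ∀ a b : G, x * (a * b) * x = (x * a * x) * (x * b * x) := by
    intro a b
    have : (x * a * x) * (x * b * x) = x * a * (x * x) * b * x := by group
    rw [this, hx]
    group
  have hinv : ∀ a : G, x * a⁻¹ * x = (x * a * x)⁻¹ := by
    intro a
    rw [mul_inv_rev, mul_inv_rev, hxi, mul_assoc]
  have hpow : ∀ (a : G) (n : ℕ), x * a ^ n * x = (x * a * x) ^ n := by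
    intro a n
    induction n with
    | zero => simpa using hx
    | succ n ih => rw [pow_succ, hmul, ih, pow_succ]
  let C : Subgroup G := K ⊓ Subgroup.centralizer {x}
  have hCmem : ∀ c, c ∈ C ↔ c ∈ K ∧ x * c * x = c := by
    intro c
    constructor
    · rintro ⟨h1, h2⟩
      refine ⟨h1, ?_⟩
      have := Subgroup.mem_centralizer_singleton_iff.1 h2
      -- c * x = x * c
      rw [← this, mul_assoc, hx, mul_one]
    · rintro ⟨h1, h2⟩
      refine ⟨h1, Subgroup.mem_centralizer_singleton_iff.2 ?_⟩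
      calc c * x = (x * c * x) * x := by rw [h2]
        _ = x * c * (x * x) := by group
        _ = x * c := by rw [hx, mul_one]
  have hCK : C ≤ K := inf_le_left
  have hCodd : Odd (Nat.card C) := Odd.of_dvd_nat hodd (Subgroup.card_dvd_of_le hCK)
  have hC1 : Nat.card C ≠ 1 := by
    intro h1
    have hCbot : ∀ c, c ∈ K → x * c * x = c → c = 1 := by
      intro c hc hcx
      have : c ∈ C := (hCmem c).2 ⟨hc, hcx⟩
      rw [Subgroup.card_eq_one.1 h1] at this
      exact Subgroup.mem_bot.1 this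
    let φ : K → K := fun k => ⟨(k : G)⁻¹ * (x * k * x), K.mul_mem (K.inv_mem k.2) (hnorm k k.2)⟩
    have hφ : Function.Injective φ := by
      intro a b hab
      have h : (a : G)⁻¹ * (x * a * x) = (b : G)⁻¹ * (x * b * x) := congrArg Subtype.val hab
      have h2 : x * ((b : G) * (a : G)⁻¹) * x = (b : G) * (a : G)⁻¹ := by
        rw [hmul, hinv]
        have : x * (b : G) * x = b * ((a : G)⁻¹ * (x * a * x)) := by rw [h]; group
        rw [this]; group
      have h3 := hCbot _ (K.mul_mem b.2 (K.inv_mem a.2)) h2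
      exact Subtype.ext (mul_inv_eq_one.1 h3).symm
    have hφs : Function.Surjective φ := Finite.surjective_of_injective hφ
    have hall : ∀ k ∈ K, x * k * x = k⁻¹ := by
      intro k hk
      obtain ⟨b, hb⟩ := hφs ⟨k, hk⟩
      have h : (b : G)⁻¹ * (x * b * x) = k := congrArg Subtype.val hb
      have h2 : x * (x * (b : G) * x) * x = b := by
        have : x * (x * (b : G) * x) * x = (x * x) * b * (x * x) := by group
        rw [this, hx]; group
      rw [← h, hmul, hinv, h2, mul_inv_rev (b : G)⁻¹, inv_inv]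
    obtain ⟨a, ha, b, hb, hab⟩ := hna
    apply hab
    have h1 := hall _ (K.mul_mem ha hb)
    rw [hmul, hall a ha, hall b hb, ← mul_inv_rev] at h1
    exact (inv_injective h1).symm
  have h3 : 3 ≤ Nat.card C := three_le hCodd hC1
  -- square roots
  obtain ⟨m, hm⟩ := hodd
  have hsq : ∀ a ∈ K, a ^ (m + 1) * a ^ (m + 1) = a := by
    intro a ha
    rw [← pow_add]
    have h1 : a ^ Nat.card K = 1 := by
      have := pow_card_eq_one' (x := (⟨a, ha⟩ : K))
      exact congrArg Subtype.val this
    have h2 : m + 1 + (m + 1) = Nat.card K + 1 := by omega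
    rw [h2, pow_succ, h1, one_mul]
  let Ψ : {k : G // k ∈ K ∧ x * k * x = k⁻¹} × C → K := fun p =>
    ⟨(p.2 : G) * ((p.1 : G) ^ (m + 1))⁻¹,
      K.mul_mem (hCK p.2.2) (K.inv_mem (K.pow_mem p.1.2.1 _))⟩
  have hΨ : ∀ p, ((Ψ p : K) : G)⁻¹ * (x * (Ψ p : K) * x) = (p.1 : G) := by
    rintro ⟨⟨a, ha, hax⟩, ⟨c, hc⟩⟩
    have hc' := ((hCmem c).1 hc).2
    change (c * (a ^ (m + 1))⁻¹)⁻¹ * (x * (c * (a ^ (m + 1))⁻¹) * x) = a
    rw [hmul, hc', hinv, hpow, hax, inv_pow, inv_inv, mul_inv_rev, inv_inv]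
    calc a ^ (m + 1) * c⁻¹ * (c * a ^ (m + 1)) = a ^ (m + 1) * a ^ (m + 1) := by group
      _ = a := hsq a ha
  have hΨi : Function.Injective Ψ := by
    intro p q hpq
    have h1 : (p.1 : G) = (q.1 : G) := by rw [← hΨ p, ← hΨ q, hpq]
    have h2 : (p.2 : G) * ((p.1 : G) ^ (m + 1))⁻¹ = (q.2 : G) * ((q.1 : G) ^ (m + 1))⁻¹ :=
      congrArg Subtype.val hpq
    rw [h1] at h2
    exact Prod.ext (Subtype.ext h1) (Subtype.ext (mul_right_cancel h2))
  have h4 := Nat.card_le_card_of_injective Ψ hΨi
  rw [Nat.card_prod] at h4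
  calc 3 * Nat.card {k : G // k ∈ K ∧ x * k * x = k⁻¹}
      ≤ Nat.card C * Nat.card {k : G // k ∈ K ∧ x * k * x = k⁻¹} := Nat.mul_le_mul_right _ h3
    _ = Nat.card {k : G // k ∈ K ∧ x * k * x = k⁻¹} * Nat.card C := mul_comm _ _
    _ ≤ Nat.card K := h4

/-- One coset. -/
theorem coset_le {G : Type*} [Group G] [Finite G] (K : Subgroup G)
    (hodd : Odd (Nat.card K)) (hna : ∃ a ∈ K, ∃ b ∈ K, a * b ≠ b * a) (x : G) (hx : x * x = 1) :
    3 * Nat.card {k : G // k ∈ K ∧ x * k * x = k⁻¹} ≤ Nat.card K := by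
  classical
  by_cases hnorm : ∀ k ∈ K, x * k * x ∈ K
  · exact coset_norm K hodd hna x hx hnorm
  · have hxi : x⁻¹ = x := inv_eq_of_mul_eq_one_left hx
    let K1 : Subgroup G := K ⊓ K.map (MulAut.conj x).toMonoidHom
    have hK1 : K1 ≤ K := inf_le_left
    have hmem : ∀ k, k ∈ K → x * k * x ∈ K → k ∈ K1 := by
      intro k hk hk2
      refine ⟨hk, Subgroup.mem_map.2 ⟨x * k * x, hk2, ?_⟩⟩
      change x * (x * k * x) * x⁻¹ = k
      rw [hxi]
      have : x * (x * k * x) * x = (x * x) * k * (x * x) := by group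
      rw [this, hx]; group
    have hmem2 : ∀ k, k ∈ K1 → x * k * x ∈ K := by
      rintro k ⟨_, hk2⟩
      obtain ⟨l, hl, hlk⟩ := Subgroup.mem_map.1 hk2
      have h1 : x * l * x⁻¹ = k := hlk
      rw [← h1, hxi]
      have : x * (x * l * x) * x = (x * x) * l * (x * x) := by group
      rw [this, hx]; simpa using hl
    have hrel : Odd (K1.relIndex K) := by
      refine Odd.of_dvd_nat hodd ?_
      exact Subgroup.relIndex_dvd_card _ _
    have hne : K1.relIndex K ≠ 1 := by
      intro h
      apply hnorm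
      intro k hk
      exact hmem2 k (Subgroup.relIndex_eq_one.1 h hk)
    have h3 := three_le hrel hne
    have hcard : Nat.card K1 * K1.relIndex K = Nat.card K := by
      have := Subgroup.card_mul_index (K1.subgroupOf K)
      rw [Subgroup.relIndex]
      rw [← this]
      congr 1
      exact (Nat.card_congr (Subgroup.subgroupOfEquivOfLe hK1).toEquiv).symm
    have hle : Nat.card {k : G // k ∈ K ∧ x * k * x = k⁻¹} ≤ Nat.card K1 := by
      refine Nat.card_le_card_of_injective
        (fun k => (⟨k.1, hmem k.1 k.2.1 (by rw [k.2.2]; exact K.inv_mem k.2.1)⟩ : K1)) ?_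
      intro a b hab
      exact Subtype.ext (congrArg (fun z : K1 => (z : G)) hab)
    calc 3 * Nat.card {k : G // k ∈ K ∧ x * k * x = k⁻¹}
        ≤ K1.relIndex K * Nat.card K1 := Nat.mul_le_mul h3 hle
      _ = Nat.card K := by rw [mul_comm, hcard]

end P1

/-- If `M` contains a nonabelian subgroup of odd order then at most a third of its elements are
involutions. -/
theorem inv_le {G : Type*} [Group G] [Finite G] (M K : Subgroup G) (hKM : K ≤ M)
    (hodd : Odd (Nat.card K)) (hna : ∃ a ∈ K, ∃ b ∈ K, a * b ≠ b * a) :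
    3 * Nat.card {y : G // y ∈ M ∧ orderOf y = 2} ≤ Nat.card M := by
  classical
  haveI : Fintype G := Fintype.ofFinite G
  have e1 : Nat.card {y : G // y ∈ M ∧ orderOf y = 2} =
      (Finset.univ.filter (fun y : G => y ∈ M ∧ orderOf y = 2)).card := by
    rw [Nat.card_eq_fintype_card, Fintype.card_subtype]
  have e2 : Nat.card M = (Finset.univ.filter (fun y : G => y ∈ M)).card := by
    rw [← Fintype.card_subtype, ← Nat.card_eq_fintype_card]
  rw [e1, e2]
  rw [Finset.card_eq_sum_card_fiberwise (f := fun y : G => (QuotientGroup.mk y : G ⧸ K))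
    (t := Finset.univ) (fun _ _ => Finset.mem_coe.2 (Finset.mem_univ _))]
  rw [Finset.card_eq_sum_card_fiberwise (s := Finset.univ.filter (fun y : G => y ∈ M))
    (f := fun y : G => (QuotientGroup.mk y : G ⧸ K))
    (t := Finset.univ) (fun _ _ => Finset.mem_coe.2 (Finset.mem_univ _))]
  rw [Finset.mul_sum]
  refine Finset.sum_le_sum ?_
  intro c _
  by_cases hc : ((Finset.univ.filter (fun y : G => y ∈ M ∧ orderOf y = 2)).filter
      (fun y : G => (QuotientGroup.mk y : G ⧸ K) = c)) = ∅
  · rw [hc]; simp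
  · obtain ⟨x, hx⟩ := Finset.nonempty_iff_ne_empty.2 hc
    simp only [Finset.mem_filter, Finset.mem_univ, true_and] at hx
    obtain ⟨⟨hxM, hx2⟩, hxc⟩ := hx
    have hxx : x * x = 1 := by
      rw [← pow_two, ← hx2, pow_orderOf_eq_one]
    have hxi : x⁻¹ = x := inv_eq_of_mul_eq_one_left hxx
    have h1 := P1.coset_le K hodd hna x hxx
    have h2 : ((Finset.univ.filter (fun y : G => y ∈ M ∧ orderOf y = 2)).filter
      (fun y : G => (QuotientGroup.mk y : G ⧸ K) = c)).card ≤
        Nat.card {k : G // k ∈ K ∧ x * k * x = k⁻¹} := by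
      rw [Nat.card_eq_fintype_card, Fintype.card_subtype]
      refine Finset.card_le_card_of_injOn (fun y => x⁻¹ * y) ?_ ?_
      · intro y hy
        simp only [Finset.coe_filter, Finset.mem_filter, Finset.mem_univ, true_and,
          Set.mem_setOf_eq] at hy ⊢
        obtain ⟨⟨hyM, hy2⟩, hyc⟩ := hy
        have hyy : y * y = 1 := by
          rw [← pow_two, ← hy2, pow_orderOf_eq_one]
        have hyi : y⁻¹ = y := inv_eq_of_mul_eq_one_left hyy
        refine ⟨QuotientGroup.eq.1 (hxc.trans hyc.symm), ?_⟩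
        rw [mul_inv_rev, inv_inv, hyi, hxi]
        calc x * (x * y) * x = (x * x) * y * x := by group
          _ = y * x := by rw [hxx, one_mul]
      · intro a _ b _ hab
        exact mul_left_cancel hab
    have h3 : Nat.card K ≤ ((Finset.univ.filter (fun y : G => y ∈ M)).filter
      (fun y : G => (QuotientGroup.mk y : G ⧸ K) = c)).card := by
      have e3 : Nat.card K = (Finset.univ.filter (fun y : G => y ∈ K)).card := by
        rw [← Fintype.card_subtype, ← Nat.card_eq_fintype_card]
      rw [e3]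
      refine Finset.card_le_card_of_injOn (fun k => x * k) ?_ ?_
      · intro k hk
        simp only [Finset.coe_filter, Finset.mem_filter, Finset.mem_univ, true_and,
          Set.mem_setOf_eq] at hk ⊢
        refine ⟨M.mul_mem hxM (hKM hk), ?_⟩
        rw [← hxc]
        refine (QuotientGroup.eq.2 ?_)
        rw [mul_inv_rev, mul_assoc, inv_mul_cancel, mul_one]
        exact K.inv_mem hk
      · intro a _ b _ hab
        exact mul_left_cancel hab
    omega

end Cfsg.Agent.LyZ
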