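import Mathlib

set_option autoImplicit false

/-!
Fixed points of an involution on a double coset (S0454, piece P2).
-/

namespace Cfsg.Agent.LyZ

open Subgroup

theorem mem_conj_map {G : Type*} [Group G] (H : Subgroup G) (g y : G) :
    y ∈ H.map (MulAut.conj g).toMonoidHom ↔ g⁻¹ * y * g ∈ H := by
  rw [Subgroup.mem_map]
  constructor
  · rintro ⟨h, hh, rfl⟩
    have : g⁻¹ * ((MulAut.conj g).toMonoidHom h) * g = h := by
      change g⁻¹ * (g * h * g⁻¹) * g = h
      group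
    rw [this]
    exact hh
  · intro h
    refine ⟨_, h, ?_⟩
    change g * (g⁻¹ * y * g) * g⁻¹ = y
    group

theorem fix_le {G : Type*} [Group G] [Finite G] (H : Subgroup G) (z : G) (hz : z ∈ H)
    (hz2 : orderOf z = 2) (g : G) :
    Nat.card {b : G ⧸ H // z • b = b ∧ ∃ h ∈ H, b = QuotientGroup.mk (h * g)} *
      Nat.card ↥(H ⊓ H.map (MulAut.conj g).toMonoidHom) ≤
    Nat.card ↥(Subgroup.centralizer {z} ⊓ H) *
      Nat.card {y : G // y ∈ H ⊓ H.map (MulAut.conj g).toMonoidHom ∧ orderOf y = 2} := by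
  classical
  set D := H ⊓ H.map (MulAut.conj g).toMonoidHom with hD
  have hDm : ∀ y, y ∈ D ↔ y ∈ H ∧ g⁻¹ * y * g ∈ H := by
    intro y
    rw [hD, Subgroup.mem_inf, mem_conj_map]
  let S := {h : G // h ∈ H ∧ h⁻¹ * z * h ∈ D}
  let B := {b : G ⧸ H // z • b = b ∧ ∃ h ∈ H, b = QuotientGroup.mk (h * g)}
  let T := {y : G // y ∈ D ∧ orderOf y = 2}
  have hrep : ∀ b : B, ∃ h ∈ H, b.1 = QuotientGroup.mk (h * g) := fun b => b.2.2
  choose r hr hrb using hrep
  have hrz : ∀ b : B, (r b)⁻¹ * z * r b ∈ D := by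
    intro b
    rw [hDm]
    refine ⟨H.mul_mem (H.mul_mem (H.inv_mem (hr b)) hz) (hr b), ?_⟩
    have h1 := b.2.1
    rw [hrb b] at h1
    have h2 : (QuotientGroup.mk (z * (r b * g)) : G ⧸ H) = QuotientGroup.mk (r b * g) := h1
    rw [eq_comm, QuotientGroup.eq] at h2
    have : g⁻¹ * ((r b)⁻¹ * z * r b) * g = (r b * g)⁻¹ * (z * (r b * g)) := by group
    rw [this]
    exact h2
  have e1 : Nat.card (B × D) ≤ Nat.card S := by
    let f : B × D → S := fun x => ⟨r x.1 * x.2, H.mul_mem (hr x.1) ((hDm _).1 x.2.2).1, by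
      have : (r x.1 * (x.2 : G))⁻¹ * z * (r x.1 * x.2) =
          (x.2 : G)⁻¹ * ((r x.1)⁻¹ * z * r x.1) * x.2 := by group
      rw [this]
      exact D.mul_mem (D.mul_mem (D.inv_mem x.2.2) (hrz x.1)) x.2.2⟩
    apply Nat.card_le_card_of_injective f
    rintro ⟨b, d⟩ ⟨b', d'⟩ h
    have h1 : r b * (d : G) = r b' * d' := congrArg Subtype.val h
    have key : ∀ (b : B) (d : D), b.1 = QuotientGroup.mk (r b * (d : G) * g) := by
      intro b d
      rw [hrb b, QuotientGroup.eq]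
      have : (r b * g)⁻¹ * (r b * (d : G) * g) = g⁻¹ * d * g := by group
      rw [this]
      exact ((hDm _).1 d.2).2
    have h2 : b = b' := by
      apply Subtype.ext
      rw [key b d, key b' d', h1]
    subst h2
    have h3 : d = d' := Subtype.ext (mul_left_cancel h1)
    rw [h3]
  have e2 : Nat.card S ≤ Nat.card (↥(Subgroup.centralizer {z} ⊓ H) × T) := by
    have hT : ∀ s : S, orderOf ((s : G)⁻¹ * z * s) = 2 := by
      intro s
      have : (s : G)⁻¹ * z * s = MulAut.conj (s : G)⁻¹ z := by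
        rw [MulAut.conj_apply, inv_inv]
      rw [this, MulEquiv.orderOf_eq, hz2]
    let y : S → T := fun s => ⟨(s : G)⁻¹ * z * s, s.2.2, hT s⟩
    let r' : Set.range y → S := fun t => t.2.choose
    have hr' : ∀ t : Set.range y, y (r' t) = t := fun t => t.2.choose_spec
    let k : S → ↥(Subgroup.centralizer {z} ⊓ H) × T := fun s =>
      ⟨⟨(s : G) * ((r' ⟨y s, s, rfl⟩ : S) : G)⁻¹, by
        refine Subgroup.mem_inf.2 ⟨?_, H.mul_mem s.2.1 (H.inv_mem (r' ⟨y s, s, rfl⟩).2.1)⟩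
        rw [mem_centralizer_singleton_iff]
        have h1 : ((r' ⟨y s, s, rfl⟩ : S) : G)⁻¹ * z * (r' ⟨y s, s, rfl⟩ : S) = (s : G)⁻¹ * z * s :=
          congrArg Subtype.val (hr' ⟨y s, s, rfl⟩)
        set ρ : G := ((r' ⟨y s, s, rfl⟩ : S) : G)
        calc (s : G) * ρ⁻¹ * z = s * (ρ⁻¹ * z * ρ) * ρ⁻¹ := by group
          _ = z * (s * ρ⁻¹) := by rw [h1]; group⟩, y s⟩
    have := Nat.card_le_card_of_injective k (by
      intro s s' h
      have h1 : y s = y s' := congrArg Prod.snd h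
      have h2 : (s : G) * ((r' ⟨y s, s, rfl⟩ : S) : G)⁻¹ = (s' : G) * ((r' ⟨y s', s', rfl⟩ : S) : G)⁻¹ :=
        congrArg (fun x => (x.1 : G)) h
      have h3 : (⟨y s, s, rfl⟩ : Set.range y) = ⟨y s', s', rfl⟩ := Subtype.ext h1
      rw [h3] at h2
      exact Subtype.ext (mul_right_cancel h2))
    exact this
  rw [Nat.card_prod] at e1 e2
  exact e1.trans e2

/-- `|C(z)| ≤ d (1 + 2 d)`, `d = |C_H(z)|`. -/
theorem cent_le {G : Type*} [Group G] [Finite G] (H : Subgroup G) (z : G) (hz : z ∈ H)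
    (hz2 : orderOf z = 2) (g : Fin 4 → G)
    (hcov : ∀ x : G, x ∈ H ∨ ∃ i, ∃ h ∈ H, ∃ h' ∈ H, x = h * g i * h')
    (h3 : ∀ i, i ≠ 2 → 3 * Nat.card {y : G // y ∈ H ⊓ H.map (MulAut.conj (g i)).toMonoidHom ∧ orderOf y = 2} ≤
      Nat.card ↥(H ⊓ H.map (MulAut.conj (g i)).toMonoidHom)) :
    Nat.card ↥(Subgroup.centralizer {z}) ≤ Nat.card ↥(Subgroup.centralizer {z} ⊓ H) *
      (1 + 2 * Nat.card ↥(Subgroup.centralizer {z} ⊓ H)) := by
  classical
  set C := Subgroup.centralizer ({z} : Set G) with hC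
  set d := Nat.card ↥(C ⊓ H) with hd
  let B : Fin 4 → Set (G ⧸ H) := fun i => {b | z • b = b ∧ ∃ h ∈ H, b = QuotientGroup.mk (h * g i)}
  have hBd : ∀ i, (B i).ncard * Nat.card ↥(H ⊓ H.map (MulAut.conj (g i)).toMonoidHom) ≤
      d * Nat.card {y : G // y ∈ H ⊓ H.map (MulAut.conj (g i)).toMonoidHom ∧ orderOf y = 2} :=
    fun i => fix_le H z hz hz2 (g i)
  have hB3 : ∀ i, i ≠ 2 → 3 * (B i).ncard ≤ d := by
    intro i hi
    have h1 := hBd i
    have h2 := h3 i hi
    have h4 : 0 < Nat.card ↥(H ⊓ H.map (MulAut.conj (g i)).toMonoidHom) := Nat.card_pos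
    apply Nat.le_of_mul_le_mul_right _ h4
    calc 3 * (B i).ncard * Nat.card ↥(H ⊓ H.map (MulAut.conj (g i)).toMonoidHom)
        = 3 * ((B i).ncard * Nat.card ↥(H ⊓ H.map (MulAut.conj (g i)).toMonoidHom)) := by ring
      _ ≤ 3 * (d * Nat.card {y : G // y ∈ H ⊓ H.map (MulAut.conj (g i)).toMonoidHom ∧ orderOf y = 2}) :=
          Nat.mul_le_mul_left _ h1
      _ = d * (3 * Nat.card {y : G // y ∈ H ⊓ H.map (MulAut.conj (g i)).toMonoidHom ∧ orderOf y = 2}) := by ring
      _ ≤ _ := Nat.mul_le_mul_left _ h2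
  have hB1 : ∀ i, (B i).ncard ≤ d := by
    intro i
    have h1 := hBd i
    have h4 : 0 < Nat.card ↥(H ⊓ H.map (MulAut.conj (g i)).toMonoidHom) := Nat.card_pos
    have h2 : Nat.card {y : G // y ∈ H ⊓ H.map (MulAut.conj (g i)).toMonoidHom ∧ orderOf y = 2} ≤
        Nat.card ↥(H ⊓ H.map (MulAut.conj (g i)).toMonoidHom) :=
      Nat.card_le_card_of_injective (fun y => (⟨y.1, y.2.1⟩ : ↥(H ⊓ H.map (MulAut.conj (g i)).toMonoidHom)))
        (by
          intro a b h
          exact Subtype.ext (congrArg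
            (fun w : ↥(H ⊓ H.map (MulAut.conj (g i)).toMonoidHom) => (w : G)) h))
    exact Nat.le_of_mul_le_mul_right (h1.trans (Nat.mul_le_mul_left _ h2)) h4
  let X : Set (G ⧸ H) := {b | ∃ c ∈ C, b = QuotientGroup.mk c}
  have hX : X ⊆ {(QuotientGroup.mk 1 : G ⧸ H)} ∪ (B 0 ∪ (B 1 ∪ (B 2 ∪ B 3))) := by
    rintro b ⟨c, hc, rfl⟩
    rcases hcov c with h | ⟨i, h, hh, h', hh', hc'⟩
    · left
      rw [Set.mem_singleton_iff, QuotientGroup.eq, mul_one]
      exact H.inv_mem h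
    · right
      have hb : (QuotientGroup.mk c : G ⧸ H) ∈ B i := by
        refine ⟨?_, h, hh, ?_⟩
        · change (QuotientGroup.mk (z * c) : G ⧸ H) = QuotientGroup.mk c
          rw [hC, mem_centralizer_singleton_iff] at hc
          rw [eq_comm, QuotientGroup.eq, ← hc, inv_mul_cancel_left]
          exact hz
        · rw [hc', QuotientGroup.eq]
          have : (h * g i * h')⁻¹ * (h * g i) = h'⁻¹ := by group
          rw [this]
          exact H.inv_mem hh'
      fin_cases i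
      · left; exact hb
      · right; left; exact hb
      · right; right; left; exact hb
      · right; right; right; exact hb
  have hXc : X.ncard ≤ 1 + 2 * d := by
    have h1 := Set.ncard_le_ncard hX
    have h2 := Set.ncard_union_le {(QuotientGroup.mk 1 : G ⧸ H)} (B 0 ∪ (B 1 ∪ (B 2 ∪ B 3)))
    have h4 := Set.ncard_union_le (B 0) (B 1 ∪ (B 2 ∪ B 3))
    have h5 := Set.ncard_union_le (B 1) (B 2 ∪ B 3)
    have h6 := Set.ncard_union_le (B 2) (B 3)
    rw [Set.ncard_singleton] at h2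
    have a0 := hB3 0 (by decide)
    have a1 := hB3 1 (by decide)
    have a3 := hB3 3 (by decide)
    have a2 := hB1 2
    omega
  have hCX : Nat.card C ≤ d * X.ncard := by
    rw [hd, ← Nat.card_coe_set_eq X, ← Nat.card_prod]
    let q : C → X := fun c => ⟨QuotientGroup.mk (c : G), c, c.2, rfl⟩
    have hrep : ∀ x : X, ∃ c : G, c ∈ C ∧ x.1 = QuotientGroup.mk c := fun x => x.2
    choose r hr hrx using hrep
    apply Nat.card_le_card_of_injective (fun c : C => ((⟨(c : G)⁻¹ * r (q c), by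
      refine Subgroup.mem_inf.2 ⟨C.mul_mem (C.inv_mem c.2) (hr _), ?_⟩
      rw [← QuotientGroup.eq]
      exact hrx (q c)⟩ : ↥(C ⊓ H)), q c))
    intro c c' h
    have h1 : q c = q c' := congrArg Prod.snd h
    have h2 : (c : G)⁻¹ * r (q c) = (c' : G)⁻¹ * r (q c') := congrArg (fun x => (x.1 : G)) h
    rw [h1] at h2
    exact Subtype.ext (inv_injective (mul_right_cancel h2))
  exact hCX.trans (Nat.mul_le_mul_left _ hXc)

end Cfsg.Agent.LyZ
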