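import Mathlib
import Cfsg.Agent.AutAlt.Basic

set_option autoImplicit false
set_option linter.unusedSectionVars false
set_option linter.unusedVariables false

/-!
Piece P4 of S0454: the centralizer of an involution with a subgroup `2.A11`.
-/

namespace Cfsg.Agent.LyZ.P4

/-- (a) -/
theorem normal11 {G : Type*} [Group G] [Finite G] (C C₀ : Subgroup G) (hle : C₀ ≤ C) (z : G)
    (hcz : ∀ c ∈ C, c * z = z * c) (f : C₀ →* alternatingGroup (Fin 11)) (hf : Function.Surjective f)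
    (hker : ∀ x : C₀, f x = 1 ↔ (x : G) ∈ Subgroup.zpowers z) (hlt : C₀.relIndex C < 11) :
    ∀ c ∈ C, ∀ x ∈ C₀, c * x * c⁻¹ ∈ C₀ := by
  classical
  have hsimp : IsSimpleGroup (alternatingGroup (Fin 11)) := alternatingGroup.isSimpleGroup (by simp)
  let N : Subgroup C := C₀.subgroupOf C
  let ψ : C₀ →* Equiv.Perm (C ⧸ N) := (MulAction.toPermHom C (C ⧸ N)).comp (Subgroup.inclusion hle)
  have hψ : ∀ (x : C₀) (c : C), ψ x (QuotientGroup.mk c) = QuotientGroup.mk (Subgroup.inclusion hle x * c) := fun x c => rfl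
  have hnorm : (ψ.ker.map f).Normal := Subgroup.Normal.map inferInstance f hf
  have hcardN : Nat.card (C ⧸ N) = C₀.relIndex C := rfl
  -- elements of the kernel
  have hkerψ : ∀ x : C₀, ψ x = 1 → ∀ c ∈ C, c * (x : G) * c⁻¹ ∈ C₀ := by
    intro x hx c hc
    have h1 := congrArg (fun σ : Equiv.Perm (C ⧸ N) => σ (QuotientGroup.mk (⟨c, hc⟩⁻¹ : C))) hx
    have h2 : (QuotientGroup.mk (Subgroup.inclusion hle x * (⟨c, hc⟩⁻¹ : C)) : C ⧸ N) = QuotientGroup.mk (⟨c, hc⟩⁻¹ : C) := h1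
    have h3 := (QuotientGroup.eq.1 h2.symm)
    have h4 : ((((⟨c, hc⟩⁻¹ : C))⁻¹ * (Subgroup.inclusion hle x * (⟨c, hc⟩⁻¹ : C)) : C) : G) ∈ C₀ := Subgroup.mem_subgroupOf.1 h3
    have h5 : ((((⟨c, hc⟩⁻¹ : C))⁻¹ * (Subgroup.inclusion hle x * (⟨c, hc⟩⁻¹ : C)) : C) : G) = c * (x : G) * c⁻¹ := by
      simp [mul_assoc]
    rwa [h5] at h4
  rcases hnorm.eq_bot_or_eq_top with hb | ht
  · exfalso
    have hle' : ψ.ker ≤ f.ker := by
      intro x hx
      have : f x ∈ ψ.ker.map f := ⟨x, hx, rfl⟩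
      rw [hb] at this
      exact this
    have c1 : Nat.card C₀ = Nat.card f.ker * Nat.card (alternatingGroup (Fin 11)) := by
      rw [← Subgroup.card_mul_index f.ker, Subgroup.index_ker, MonoidHom.range_eq_top.2 hf, Subgroup.card_top]
    have c2 : Nat.card C₀ = Nat.card ψ.ker * Nat.card ψ.range := by
      rw [← Subgroup.card_mul_index ψ.ker, Subgroup.index_ker]
    have c3 : Nat.card ψ.ker ≤ Nat.card f.ker := Nat.le_of_dvd Nat.card_pos (Subgroup.card_dvd_of_le hle')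
    have c4 : Nat.card ψ.range ≤ (C₀.relIndex C).factorial := by
      have h1 : Nat.card ψ.range ≤ Nat.card (Equiv.Perm (C ⧸ N)) := Nat.card_le_card_of_injective _ Subtype.val_injective
      have h2 : Nat.card (Equiv.Perm (C ⧸ N)) = (C₀.relIndex C).factorial := by
        rw [Nat.card_perm, hcardN]
      rwa [h2] at h1
    have c5 : (C₀.relIndex C).factorial ≤ (10).factorial := Nat.factorial_le (by omega)
    have c6 : Nat.card (alternatingGroup (Fin 11)) = (11).factorial / 2 := by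
      have h1 := two_mul_nat_card_alternatingGroup (α := Fin 11)
      rw [Nat.card_perm, Nat.card_fin] at h1
      omega
    have c7 : Nat.card f.ker * Nat.card (alternatingGroup (Fin 11)) ≤ Nat.card f.ker * (10).factorial := by
      rw [← c1, c2]
      exact Nat.mul_le_mul c3 (c4.trans c5)
    have c8 := Nat.le_of_mul_le_mul_left c7 Nat.card_pos
    rw [c6] at c8
    revert c8
    decide
  · intro c hc x hx
    -- write `x = k * z^i` with `k` in the kernel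
    have h1 : f ⟨x, hx⟩ ∈ ψ.ker.map f := by rw [ht]; trivial
    obtain ⟨k, hk, hkx⟩ := h1
    have hk' : ψ k = 1 := hk
    have h2 : f (k⁻¹ * ⟨x, hx⟩) = 1 := by rw [map_mul, map_inv, hkx, inv_mul_cancel]
    have h3 := (hker _).1 h2
    obtain ⟨i, hi⟩ := Subgroup.mem_zpowers_iff.1 h3
    have hzC : Commute c z := hcz c hc
    have h4 : x = (k : G) * z ^ i := by
      rw [hi]
      show x = (k : G) * ((k : G)⁻¹ * x)
      group
    have h5 : z ^ i ∈ C₀ := by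
      rw [hi]
      exact (k⁻¹ * ⟨x, hx⟩ : C₀).2
    have h6 : c * x * c⁻¹ = (c * (k : G) * c⁻¹) * z ^ i := by
      have h7 : z ^ i * c⁻¹ = c⁻¹ * z ^ i := ((hzC.zpow_right i).inv_left.eq).symm
      rw [h4, mul_assoc, mul_assoc, h7]
      group
    rw [h6]
    exact C₀.mul_mem (hkerψ k hk' c hc) h5

/-- (c) the automorphism of `A11` induced by an element normalising `C₀`. -/
theorem exists_sigma {G : Type*} [Group G] [Finite G] (C₀ : Subgroup G) (z : G)
    (f : C₀ →* alternatingGroup (Fin 11)) (hf : Function.Surjective f)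
    (hker : ∀ x : C₀, f x = 1 ↔ (x : G) ∈ Subgroup.zpowers z) (y : G) (hy : ∀ x ∈ C₀, y * x * y⁻¹ ∈ C₀)
    (hyz : y * z = z * y) :
    ∃ σ : Equiv.Perm (Fin 11), ∀ x (hx : x ∈ C₀), ((f ⟨y * x * y⁻¹, hy x hx⟩ : alternatingGroup (Fin 11)) :
      Equiv.Perm (Fin 11)) = σ * (f ⟨x, hx⟩ : alternatingGroup (Fin 11)) * σ⁻¹ := by
  classical
  let cy : C₀ →* C₀ :=
    { toFun := fun x => ⟨y * x * y⁻¹, hy x x.2⟩
      map_one' := Subtype.ext (by simp)
      map_mul' := fun a b => Subtype.ext (by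
        show y * ((a : G) * b) * y⁻¹ = y * a * y⁻¹ * (y * b * y⁻¹)
        group) }
  have hcy : ∀ x : C₀, ((cy x : C₀) : G) = y * x * y⁻¹ := fun x => rfl
  have hcyinj : Function.Injective cy := by
    intro a b h
    apply Subtype.ext
    have h1 : y * (a : G) * y⁻¹ = y * b * y⁻¹ := congrArg Subtype.val h
    exact mul_left_cancel (mul_right_cancel h1)
  have hcysurj : Function.Surjective cy := Finite.surjective_of_injective hcyinj
  have hker' : f.ker ≤ (f.comp cy).ker := by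
    intro x hx
    have h1 : (x : G) ∈ Subgroup.zpowers z := (hker x).1 hx
    show f (cy x) = 1
    rw [hker, hcy]
    obtain ⟨i, hi⟩ := Subgroup.mem_zpowers_iff.1 h1
    have hc : Commute y z := hyz
    have h2 : y * (x : G) * y⁻¹ = x := by
      rw [← hi, (hc.zpow_right i).eq, mul_inv_cancel_right]
    rw [h2]
    exact h1
  let α : alternatingGroup (Fin 11) →* alternatingGroup (Fin 11) := f.liftOfSurjective hf ⟨f.comp cy, hker'⟩
  have hα : ∀ x : C₀, α (f x) = f (cy x) := fun x =>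
    MonoidHom.liftOfRightInverse_comp_apply f _ (Function.rightInverse_surjInv hf) ⟨f.comp cy, hker'⟩ x
  have hαs : Function.Surjective α := by
    intro a
    obtain ⟨x, rfl⟩ := hf a
    obtain ⟨x', rfl⟩ := hcysurj x
    exact ⟨f x', hα x'⟩
  have hαb : Function.Bijective α := ⟨Finite.injective_iff_surjective.2 hαs, hαs⟩
  obtain ⟨σ, hσ⟩ := (Cfsg.Agent.AutAlt.conjNormal_bijective (α := Fin 11) (by simp) (by simp)).2
    (MulEquiv.ofBijective α hαb)
  refine ⟨σ, fun x hx => ?_⟩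
  have h1 := congrArg (fun φ : MulAut (alternatingGroup (Fin 11)) => ((φ (f ⟨x, hx⟩) : alternatingGroup (Fin 11)) : Equiv.Perm (Fin 11))) hσ
  have h2 : ((α (f ⟨x, hx⟩) : alternatingGroup (Fin 11)) : Equiv.Perm (Fin 11)) = σ * (f ⟨x, hx⟩ : alternatingGroup (Fin 11)) * σ⁻¹ := h1.symm
  rw [hα] at h2
  exact h2

/-- a permutation centralising `A11` is trivial -/
theorem cen11 (τ : Equiv.Perm (Fin 11)) (h : ∀ a : alternatingGroup (Fin 11), τ * (a : Equiv.Perm (Fin 11)) * τ⁻¹ = a) :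
    τ = 1 := by
  apply (Cfsg.Agent.AutAlt.conjNormal_bijective (α := Fin 11) (by simp) (by simp)).1
  rw [map_one]
  apply MulEquiv.ext
  intro a
  apply Subtype.ext
  exact h a

/-- a perfect group has no nontrivial homomorphism to a solvable group -/
theorem perf_triv {L Q : Type*} [Group L] [Group Q] (hL : commutator L = ⊤) (hQ : Group.IsSolvable Q) (g : L →* Q) (x : L) :
    g x = 1 := by
  have h1 : ∀ n, derivedSeries L n = ⊤ := by
    intro n
    induction n with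
    | zero => rfl
    | succ n ih => rw [derivedSeries_succ, ih]; exact hL
  obtain ⟨n, hn⟩ := hQ
  have h2 := map_derivedSeries_le_derivedSeries g n
  rw [h1, hn] at h2
  exact h2 ⟨x, trivial, rfl⟩

end Cfsg.Agent.LyZ.P4

namespace Cfsg.Agent.LyZ

open P4

/-- [P4] -/
theorem cent_eq {G : Type*} [Group G] [Finite G] (H C₀ : Subgroup G) (z : G) (hz2 : orderOf z = 2) (hzC : z ∈ C₀)
    (hC₀ : C₀ ≤ Subgroup.centralizer {z}) (f : C₀ →* alternatingGroup (Fin 11)) (hf : Function.Surjective f)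
    (hker : ∀ x : C₀, f x = 1 ↔ (x : G) ∈ Subgroup.zpowers z) (hperf : commutator C₀ = ⊤)
    (hodd : Odd (C₀.relIndex (Subgroup.centralizer {z}))) (hlt : C₀.relIndex (Subgroup.centralizer {z}) < 11)
    (L₁ L₂ : Subgroup G) (hL1 : commutator L₁ = ⊤) (hL2 : commutator L₂ = ⊤)
    (hLD : L₁ ⊔ L₂ ≤ Subgroup.centralizer {z} ⊓ H)
    (hL : (L₁ ⊔ L₂).relIndex (Subgroup.centralizer {z} ⊓ H) = 2)
    (hfix : ∀ g : G, Subgroup.centralizer {z} ⊓ H ≤ H.map (MulAut.conj g).toMonoidHom → g ∈ H) :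
    Subgroup.centralizer {z} = C₀ := by
  classical
  obtain ⟨C, hCdef⟩ : ∃ C, C = Subgroup.centralizer ({z} : Set G) := ⟨_, rfl⟩
  rw [← hCdef] at hC₀ hodd hlt hLD hL hfix ⊢
  have hcz : ∀ c ∈ C, c * z = z * c := by
    intro c hc
    rw [hCdef, Subgroup.mem_centralizer_singleton_iff] at hc
    exact hc
  have hnrm := normal11 C C₀ hC₀ z hcz f hf hker hlt
  let N : Subgroup C := C₀.subgroupOf C
  have hN : N.Normal := by
    constructor
    intro x hx c
    have := hnrm c c.2 x (Subgroup.mem_subgroupOf.1 hx)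
    exact Subgroup.mem_subgroupOf.2 this
  have hmemN : ∀ x : C, x ∈ N ↔ (x : G) ∈ C₀ := fun x => Subgroup.mem_subgroupOf
  obtain ⟨k, hk⟩ : ∃ k, k = Nat.card (C ⧸ N) := ⟨_, rfl⟩
  have hkr : C₀.relIndex C = k := by rw [hk]; rfl
  rw [hkr] at hodd hlt
  have hkpos : 0 < k := by rw [hk]; exact Nat.card_pos
  have hpowk : ∀ y : C, (y : G) ^ k ∈ C₀ := by
    intro y
    have h1 : (QuotientGroup.mk y : C ⧸ N) ^ k = 1 := by rw [hk]; exact pow_card_eq_one'
    have h2 : (QuotientGroup.mk (y ^ k) : C ⧸ N) = 1 := h1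
    have h3 := (QuotientGroup.eq_one_iff _).1 h2
    exact (hmemN _).1 h3
  -- the quotient is solvable
  have hsol : Group.IsSolvable (C ⧸ N) := by
    have hcase : k = 1 ∨ k = 3 ∨ k = 5 ∨ k = 7 ∨ k = 9 := by
      obtain ⟨m, hm⟩ := hodd
      omega
    have hp : ∀ (p n : ℕ), p.Prime → k = p ^ n → Group.IsSolvable (C ⧸ N) := by
      intro p n hp hkn
      have : Fact p.Prime := ⟨hp⟩
      have h1 : IsPGroup p (C ⧸ N) := IsPGroup.of_card (hk.symm.trans hkn)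
      have := h1.isNilpotent
      infer_instance
    rcases hcase with h | h | h | h | h
    · exact hp 3 0 (by norm_num) (by rw [h]; norm_num)
    · exact hp 3 1 (by norm_num) (by rw [h]; norm_num)
    · exact hp 5 1 (by norm_num) (by rw [h]; norm_num)
    · exact hp 7 1 (by norm_num) (by rw [h]; norm_num)
    · exact hp 3 2 (by norm_num) (by rw [h]; norm_num)
  -- (b)
  have hLC : ∀ L : Subgroup G, L ≤ C → commutator L = ⊤ → L ≤ C₀ := by
    intro L hLC hLp x hx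
    have h1 := perf_triv hLp hsol ((QuotientGroup.mk' N).comp (Subgroup.inclusion hLC)) ⟨x, hx⟩
    have h2 : (QuotientGroup.mk (Subgroup.inclusion hLC ⟨x, hx⟩) : C ⧸ N) = 1 := h1
    exact (hmemN _).1 ((QuotientGroup.eq_one_iff _).1 h2)
  have hL12 : L₁ ⊔ L₂ ≤ C₀ := by
    apply sup_le
    · exact hLC L₁ ((le_sup_left.trans hLD).trans inf_le_left) hL1
    · exact hLC L₂ ((le_sup_right.trans hLD).trans inf_le_left) hL2
  have hDC : C ⊓ H ≤ C₀ := by
    intro d hd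
    have h1 : (⟨d, hd⟩ : (C ⊓ H : Subgroup G)) ^ 2 ∈ (L₁ ⊔ L₂).subgroupOf (C ⊓ H) :=
      Subgroup.sq_mem_of_index_two hL _
    have h2 : d ^ 2 ∈ C₀ := hL12 (Subgroup.mem_subgroupOf.1 h1)
    have h3 := hpowk ⟨d, hd.1⟩
    obtain ⟨m, hm⟩ := hodd
    have h4 : d = d ^ k * ((d ^ 2) ^ m)⁻¹ := by
      rw [hm, ← pow_mul]
      have : d ^ (2 * m + 1) = d * d ^ (2 * m) := by rw [← pow_succ']
      rw [this, mul_inv_cancel_right]
    rw [h4]
    exact C₀.mul_mem h3 (C₀.inv_mem (C₀.pow_mem h2 m))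
  -- (c)
  apply le_antisymm _ hC₀
  intro y hy
  have hyC₀ : ∀ x ∈ C₀, y * x * y⁻¹ ∈ C₀ := hnrm y hy
  obtain ⟨σ, hσ⟩ := exists_sigma C₀ z f hf hker y hyC₀ (hcz y hy)
  -- powers
  have hpow : ∀ n : ℕ, ∀ x (hx : x ∈ C₀), ∃ h : y ^ n * x * (y ^ n)⁻¹ ∈ C₀,
      ((f ⟨y ^ n * x * (y ^ n)⁻¹, h⟩ : alternatingGroup (Fin 11)) : Equiv.Perm (Fin 11)) =
        σ ^ n * (f ⟨x, hx⟩ : alternatingGroup (Fin 11)) * (σ ^ n)⁻¹ := by
    intro n
    induction n with
    | zero =>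
      intro x hx
      have h0 : y ^ 0 * x * (y ^ 0)⁻¹ = x := by simp
      refine ⟨by rw [h0]; exact hx, ?_⟩
      have h1 : (⟨y ^ 0 * x * (y ^ 0)⁻¹, by rw [h0]; exact hx⟩ : C₀) = ⟨x, hx⟩ := Subtype.ext h0
      rw [h1]
      simp
    | succ n ih =>
      intro x hx
      obtain ⟨h, he⟩ := ih x hx
      have h0 : y ^ (n + 1) * x * (y ^ (n + 1))⁻¹ = y * (y ^ n * x * (y ^ n)⁻¹) * y⁻¹ := by
        rw [pow_succ']; group
      refine ⟨by rw [h0]; exact hyC₀ _ h, ?_⟩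
      have h1 : (⟨y ^ (n + 1) * x * (y ^ (n + 1))⁻¹, by rw [h0]; exact hyC₀ _ h⟩ : C₀) =
          ⟨y * (y ^ n * x * (y ^ n)⁻¹) * y⁻¹, hyC₀ _ h⟩ := Subtype.ext h0
      rw [h1, hσ _ h, he, pow_succ']
      group
  have hyk : y ^ k ∈ C₀ := hpowk ⟨y, hy⟩
  have hσk : σ ^ k = (f ⟨y ^ k, hyk⟩ : alternatingGroup (Fin 11)) := by
    have h1 : (((f ⟨y ^ k, hyk⟩ : alternatingGroup (Fin 11)) : Equiv.Perm (Fin 11)))⁻¹ * σ ^ k = 1 := by
      apply cen11
      intro a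
      obtain ⟨x, rfl⟩ := hf a
      obtain ⟨h, he⟩ := hpow k x x.2
      have h2 : (⟨y ^ k * (x : G) * (y ^ k)⁻¹, h⟩ : C₀) = ⟨y ^ k, hyk⟩ * x * (⟨y ^ k, hyk⟩ : C₀)⁻¹ := Subtype.ext rfl
      rw [h2, map_mul, map_mul, map_inv] at he
      have h3 : ((f ⟨y ^ k, hyk⟩ : alternatingGroup (Fin 11)) : Equiv.Perm (Fin 11)) * ((f x : alternatingGroup (Fin 11)) : Equiv.Perm (Fin 11)) *
          (((f ⟨y ^ k, hyk⟩ : alternatingGroup (Fin 11)) : Equiv.Perm (Fin 11)))⁻¹ = σ ^ k * ((f x : alternatingGroup (Fin 11)) : Equiv.Perm (Fin 11)) * (σ ^ k)⁻¹ := he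
      generalize ((f ⟨y ^ k, hyk⟩ : alternatingGroup (Fin 11)) : Equiv.Perm (Fin 11)) = p at h3 ⊢
      generalize ((f x : alternatingGroup (Fin 11)) : Equiv.Perm (Fin 11)) = q at h3 ⊢
      generalize σ ^ k = r at h3 ⊢
      calc p⁻¹ * r * q * (p⁻¹ * r)⁻¹ = p⁻¹ * (r * q * r⁻¹) * p := by group
        _ = p⁻¹ * (p * q * p⁻¹) * p := by rw [h3]
        _ = q := by group
    exact (inv_mul_eq_one.1 h1).symm
  have hsgn : Equiv.Perm.sign σ = 1 := by
    have h1 : Equiv.Perm.sign (σ ^ k) = 1 := by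
      rw [hσk]
      exact Equiv.Perm.mem_alternatingGroup.1 (f ⟨y ^ k, hyk⟩).2
    rw [map_pow] at h1
    rcases Int.units_eq_one_or (Equiv.Perm.sign σ) with h | h
    · exact h
    · rw [h, hodd.neg_one_pow] at h1
      rw [h, h1]
  obtain ⟨c, hc⟩ := hf ⟨σ, Equiv.Perm.mem_alternatingGroup.2 hsgn⟩
  obtain ⟨l, hl⟩ : ∃ l, l = (c : G)⁻¹ * y := ⟨_, rfl⟩
  have hlC : l ∈ C := by rw [hl]; exact C.mul_mem (C.inv_mem (hC₀ c.2)) hy
  have hlz : l * z = z * l := hcz l hlC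
  have hlx : ∀ x (hx : x ∈ C₀), l * x * l⁻¹ * x⁻¹ ∈ Subgroup.zpowers z := by
    intro x hx
    have h1 : l * x * l⁻¹ * x⁻¹ = ((c⁻¹ * ⟨y * x * y⁻¹, hyC₀ x hx⟩ * c * (⟨x, hx⟩ : C₀)⁻¹ : C₀) : G) := by
      rw [hl]
      show (c : G)⁻¹ * y * x * ((c : G)⁻¹ * y)⁻¹ * x⁻¹ = (c : G)⁻¹ * (y * x * y⁻¹) * c * x⁻¹
      group
    rw [h1, ← hker, map_mul, map_mul, map_mul, map_inv, map_inv, hc]
    apply Subtype.ext
    show σ⁻¹ * ((f ⟨y * x * y⁻¹, hyC₀ x hx⟩ : alternatingGroup (Fin 11)) : Equiv.Perm (Fin 11)) * σ *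
      (((f ⟨x, hx⟩ : alternatingGroup (Fin 11)) : Equiv.Perm (Fin 11)))⁻¹ = 1
    rw [hσ x hx]
    group
  -- `l` centralises `C₀`
  have hzcen : ∀ u ∈ Subgroup.zpowers z, ∀ x ∈ C, u * x = x * u := by
    intro u hu x hx
    obtain ⟨i, rfl⟩ := Subgroup.mem_zpowers_iff.1 hu
    have : Commute x z := hcz x hx
    exact ((this.zpow_right i).eq).symm
  let η : C₀ →* Subgroup.zpowers z :=
    { toFun := fun x => ⟨l * x * l⁻¹ * (x : G)⁻¹, hlx x x.2⟩
      map_one' := Subtype.ext (by simp)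
      map_mul' := fun a b => Subtype.ext (by
        show l * ((a : G) * b) * l⁻¹ * ((a : G) * b)⁻¹ = (l * a * l⁻¹ * (a : G)⁻¹) * (l * b * l⁻¹ * (b : G)⁻¹)
        have h1 := hzcen _ (hlx b b.2) (a : G)⁻¹ (C.inv_mem (hC₀ a.2))
        calc l * ((a : G) * b) * l⁻¹ * ((a : G) * b)⁻¹ = (l * a * l⁻¹) * ((l * b * l⁻¹ * (b : G)⁻¹) * (a : G)⁻¹) := by group
          _ = (l * a * l⁻¹) * ((a : G)⁻¹ * (l * b * l⁻¹ * (b : G)⁻¹)) := by rw [h1]
          _ = _ := by group) }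
  have hη : ∀ x ∈ C₀, l * x * l⁻¹ = x := by
    intro x hx
    have hsolz : Group.IsSolvable (Subgroup.zpowers z) := inferInstance
    have h1 := perf_triv hperf hsolz η ⟨x, hx⟩
    have h2 : l * x * l⁻¹ * x⁻¹ = 1 := congrArg Subtype.val h1
    exact mul_inv_eq_one.1 h2
  have hlH : l ∈ H := by
    apply hfix
    intro d hd
    have h1 := hη d (hDC hd)
    exact ⟨d, hd.2, by simpa using h1⟩
  have hlC₀ : l ∈ C₀ := hDC ⟨hlC, hlH⟩
  have h1 : y = c * l := by rw [hl]; group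
  rw [h1]
  exact C₀.mul_mem c.2 hlC₀

end Cfsg.Agent.LyZ
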