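import Cfsg.Agent.H73.MooreAlt
import Mathlib.GroupTheory.SpecificGroups.Alternating.Simple

set_option autoImplicit false

namespace Cfsg.Agent.LyZ

theorem exists_f {G : Type*} [Group G] [Finite G] (z : G) (hz2 : orderOf z = 2) (X : Fin 9 → G)
    (hX : ∀ i, X i * z = z * X i) (h0 : X 0 ^ 3 ∈ Subgroup.zpowers z)
    (h1 : ∀ i : Fin 9, 1 ≤ i.val → X i ^ 2 ∈ Subgroup.zpowers z)
    (h2 : ∀ i j : Fin 9, j.val = i.val + 1 → (X i * X j) ^ 3 ∈ Subgroup.zpowers z)
    (h3 : ∀ i j : Fin 9, i.val + 1 < j.val → (X i * X j) ^ 2 ∈ Subgroup.zpowers z)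
    (hz1 : X 1 ^ 2 = z) (hne : X 0 ∉ Subgroup.zpowers z) :
    ∃ f : ↥(Subgroup.closure (Set.range X)) →* alternatingGroup (Fin 11), Function.Surjective f ∧
      (∀ x, f x = 1 ↔ (x : G) ∈ Subgroup.zpowers z) ∧
      commutator ↥(Subgroup.closure (Set.range X)) = ⊤ := by
  set C : Subgroup G := Subgroup.closure (Set.range X) with hC
  have hXC : ∀ i, X i ∈ C := fun i => Subgroup.subset_closure ⟨i, rfl⟩
  have hzC : z ∈ C := by rw [← hz1]; exact C.pow_mem (hXC 1) 2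
  have hcent : ∀ x ∈ C, x * z = z * x := by
    have : C ≤ Subgroup.centralizer ({z} : Set G) := by
      rw [hC, Subgroup.closure_le]
      rintro _ ⟨i, rfl⟩
      exact Subgroup.mem_centralizer_singleton_iff.2 (hX i)
    exact fun x hx => Subgroup.mem_centralizer_singleton_iff.1 (this hx)
  have hzz : ∀ y ∈ Subgroup.zpowers z, y ^ 2 = 1 ∧ ∀ x ∈ C, x * y = y * x := by
    rintro _ ⟨k, rfl⟩
    refine ⟨?_, fun x hx => ?_⟩
    · change (z ^ k) ^ 2 = 1
      rw [← zpow_natCast, ← zpow_mul, mul_comm, zpow_mul, zpow_natCast, ← hz2, pow_orderOf_eq_one, one_zpow]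
    · exact ((show Commute x z from hcent x hx).zpow_right k).eq
  let Z : Subgroup C := (Subgroup.zpowers z).subgroupOf C
  have hZn : Z.Normal := by
    refine ⟨fun n hn g => ?_⟩
    have h := (hzz n.1 hn).2 g.1 g.2
    change (g.1 * n.1 * g.1⁻¹) ∈ Subgroup.zpowers z
    rw [h, mul_inv_cancel_right]
    exact hn
  let x' : Fin 9 → C := fun i => ⟨X i, hXC i⟩
  let y' : Fin (11 - 2) → C ⧸ Z := fun i => QuotientGroup.mk' Z (x' i)
  have hmk : ∀ w : C, (w : G) ∈ Subgroup.zpowers z → QuotientGroup.mk' Z w = 1 := fun w hw =>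
    (QuotientGroup.eq_one_iff w).2 hw
  obtain ⟨e⟩ : Nonempty (PresentedGroup
      ({g : FreeGroup (Fin (11 - 2)) | ∃ i : Fin (11 - 2), i.val = 0 ∧ g = FreeGroup.of i ^ 3} ∪
       {g | ∃ i : Fin (11 - 2), 1 ≤ i.val ∧ g = FreeGroup.of i ^ 2} ∪
       {g | ∃ i j : Fin (11 - 2), j.val = i.val + 1 ∧ g = (FreeGroup.of i * FreeGroup.of j) ^ 3} ∪
       {g | ∃ i j : Fin (11 - 2), i.val + 1 < j.val ∧ g = (FreeGroup.of i * FreeGroup.of j) ^ 2}) ≃*
      alternatingGroup (Fin 11)) := H73.MooreAlt.iso (m := 8)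
  let φ : PresentedGroup
      ({g : FreeGroup (Fin (11 - 2)) | ∃ i : Fin (11 - 2), i.val = 0 ∧ g = FreeGroup.of i ^ 3} ∪
       {g | ∃ i : Fin (11 - 2), 1 ≤ i.val ∧ g = FreeGroup.of i ^ 2} ∪
       {g | ∃ i j : Fin (11 - 2), j.val = i.val + 1 ∧ g = (FreeGroup.of i * FreeGroup.of j) ^ 3} ∪
       {g | ∃ i j : Fin (11 - 2), i.val + 1 < j.val ∧ g = (FreeGroup.of i * FreeGroup.of j) ^ 2}) →* C ⧸ Z :=
    PresentedGroup.toGroup (f := y') (by
      rintro r (((⟨i, hi, rfl⟩ | ⟨i, hi, rfl⟩) | ⟨i, j, hij, rfl⟩) | ⟨i, j, hij, rfl⟩)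
      · have : i = 0 := Fin.ext hi
        subst this
        simp only [map_pow, FreeGroup.lift_apply_of, y']
        rw [← map_pow]
        exact hmk _ h0
      · simp only [map_pow, FreeGroup.lift_apply_of, y']
        rw [← map_pow]
        exact hmk _ (h1 i hi)
      · simp only [map_pow, map_mul, FreeGroup.lift_apply_of, y']
        rw [← map_mul, ← map_pow]
        exact hmk _ (h2 i j hij)
      · simp only [map_pow, map_mul, FreeGroup.lift_apply_of, y']
        rw [← map_mul, ← map_pow]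
        exact hmk _ (h3 i j hij))
  have hφ : ∀ i, φ (PresentedGroup.of i) = y' i := fun i => PresentedGroup.toGroup.of _
  let ψ : alternatingGroup (Fin 11) →* C ⧸ Z := φ.comp e.symm.toMonoidHom
  have hψs : Function.Surjective ψ := by
    rw [← MonoidHom.range_eq_top]
    have hr : ∀ i, y' i ∈ ψ.range := fun i => ⟨e (PresentedGroup.of i), by
      change φ (e.symm (e _)) = _
      rw [e.symm_apply_apply, hφ]⟩
    rw [eq_top_iff]
    rintro q -
    obtain ⟨⟨c, hc⟩, rfl⟩ := QuotientGroup.mk'_surjective Z q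
    have h4 : C ≤ (ψ.range.comap (QuotientGroup.mk' Z)).map C.subtype := by
      conv_lhs => rw [hC]
      rw [Subgroup.closure_le]
      rintro _ ⟨i, rfl⟩
      exact ⟨x' i, hr i, rfl⟩
    obtain ⟨w, hw, hwc⟩ := h4 hc
    have : w = ⟨c, hc⟩ := Subtype.ext hwc
    rw [← this]
    exact hw
  have hsimp : IsSimpleGroup (alternatingGroup (Fin 11)) := alternatingGroup.isSimpleGroup (by simp)
  have hψi : Function.Injective ψ := by
    rcases (inferInstance : ψ.ker.Normal).eq_bot_or_eq_top with h | h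
    · exact (MonoidHom.ker_eq_bot_iff ψ).1 h
    · exfalso
      obtain ⟨a, ha⟩ := hψs (QuotientGroup.mk' Z (x' 0))
      have h5 : a ∈ ψ.ker := by rw [h]; trivial
      rw [MonoidHom.mem_ker.1 h5] at ha
      exact hne ((QuotientGroup.eq_one_iff (x' 0)).1 ha.symm)
  let E : alternatingGroup (Fin 11) ≃* C ⧸ Z := MulEquiv.ofBijective ψ ⟨hψi, hψs⟩
  let f : C →* alternatingGroup (Fin 11) := E.symm.toMonoidHom.comp (QuotientGroup.mk' Z)
  have hfs : Function.Surjective f := E.symm.surjective.comp (QuotientGroup.mk'_surjective Z)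
  have hfk : ∀ x, f x = 1 ↔ (x : G) ∈ Subgroup.zpowers z := by
    intro x
    change E.symm (QuotientGroup.mk' Z x) = 1 ↔ _
    rw [EmbeddingLike.map_eq_one_iff]
    exact QuotientGroup.eq_one_iff x
  refine ⟨f, hfs, hfk, ?_⟩
  -- perfect
  have hK : (commutator C).map f = ⊤ := by
    rw [commutator_def, Subgroup.map_commutator, ← MonoidHom.range_eq_map, MonoidHom.range_eq_top.2 hfs,
      ← commutator_def, commutator_alternatingGroup_eq_top (by simp)]
  have hdec : ∀ x : C, ∃ k ∈ commutator C, ∃ ζ : C, (ζ : G) ∈ Subgroup.zpowers z ∧ x = ζ * k := by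
    intro x
    have : f x ∈ (commutator C).map f := by rw [hK]; trivial
    obtain ⟨k, hk, hkx⟩ := this
    refine ⟨k, hk, x * k⁻¹, (hfk _).1 (by rw [map_mul, map_inv, hkx, mul_inv_cancel]), by group⟩
  have hzK : (⟨z, hzC⟩ : C) ∈ commutator C := by
    obtain ⟨k, hk, ζ, hζ, hx⟩ := hdec (x' 1)
    have h6 : (⟨z, hzC⟩ : C) = k ^ 2 := by
      have h7 : (x' 1) ^ 2 = (⟨z, hzC⟩ : C) := Subtype.ext hz1
      have h8 : ζ ^ 2 = 1 := Subtype.ext (hzz ζ.1 hζ).1
      have h9 : k * ζ = ζ * k := Subtype.ext ((hzz ζ.1 hζ).2 k.1 k.2)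
      rw [← h7, hx, (show Commute ζ k from h9.symm).mul_pow, h8, one_mul]
    rw [h6]
    exact Subgroup.pow_mem _ hk 2
  rw [eq_top_iff]
  rintro x -
  obtain ⟨k, hk, ζ, ⟨n, hn⟩, rfl⟩ := hdec x
  refine Subgroup.mul_mem _ ?_ hk
  have : ζ = (⟨z, hzC⟩ : C) ^ n := Subtype.ext hn.symm
  rw [this]
  exact Subgroup.zpow_mem _ hzK n

end Cfsg.Agent.LyZ
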