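import Mathlib
import Cfsg.Prelude.Def_SporadicB

set_option autoImplicit false

open scoped commutatorElement

namespace Cfsg.Agent.LyZ

/-- An extension of `A_11` by a central group of order 2, perfect, is a non-split double cover. -/
theorem nonsplit {G : Type*} [Group G] [Finite G] (C : Subgroup G) (z : G) (hz2 : orderOf z = 2)
    (hzC : z ∈ C) (hcen : ∀ x ∈ C, x * z = z * x) (f : C →* alternatingGroup (Fin 11))
    (hf : Function.Surjective f) (hker : ∀ x : C, f x = 1 ↔ (x : G) ∈ Subgroup.zpowers z)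
    (hperf : commutator C = ⊤) : Cfsg.IsNonsplitDoubleCover C (alternatingGroup (Fin 11)) := by
  have hcz : ∀ x ∈ C, ∀ w ∈ Subgroup.zpowers z, x * w = w * x := by
    intro x hx w hw
    obtain ⟨k, rfl⟩ := Subgroup.mem_zpowers_iff.mp hw
    have h : Commute x z := hcen x hx
    exact (h.zpow_right k).eq
  have hkc : f.ker = Subgroup.center C := by
    apply le_antisymm
    · intro x hx
      rw [Subgroup.mem_center_iff]
      intro g
      apply Subtype.ext
      exact hcz g g.2 x ((hker x).1 hx)
    · intro x hx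
      rw [Subgroup.mem_center_iff] at hx
      have h1 : f x ∈ Subgroup.center (alternatingGroup (Fin 11)) := by
        rw [Subgroup.mem_center_iff]
        intro g
        obtain ⟨y, rfl⟩ := hf g
        rw [← map_mul, ← map_mul, hx y]
      have h2 : Subgroup.center (alternatingGroup (Fin 11)) = ⊥ :=
        alternatingGroup.center_eq_bot (by simp)
      rw [h2, Subgroup.mem_bot] at h1
      exact h1
  have hcard : Nat.card (Subgroup.center C) = 2 := by
    rw [← hkc, ← hz2, ← Nat.card_zpowers]
    refine Nat.card_congr ⟨fun x => ⟨((x : C) : G), (hker x).1 x.2⟩,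
      fun w => ⟨⟨w, ?_⟩, ?_⟩, ?_, ?_⟩
    · have hle : Subgroup.zpowers z ≤ C := by
        rw [Subgroup.zpowers_le]; exact hzC
      exact hle w.2
    · exact (hker _).2 w.2
    · intro x; rfl
    · intro w; rfl
  refine ⟨hcard, ⟨?_⟩, ?_⟩
  · exact (QuotientGroup.quotientMulEquivOfEq hkc.symm).trans
      (QuotientGroup.quotientKerEquivOfSurjective f hf)
  · intro L hL
    have hsup : ∀ x : C, ∃ a ∈ Subgroup.center C, ∃ l ∈ L, a * l = x := by
      intro x
      obtain ⟨⟨a, l⟩, h⟩ := hL.2 x
      exact ⟨a, a.2, l, l.2, h⟩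
    have hcomm : commutator C ≤ L := by
      rw [commutator_def, Subgroup.commutator_le]
      intro x _ y _
      obtain ⟨a, ha, l, hl, rfl⟩ := hsup x
      obtain ⟨b, hb, m, hm, rfl⟩ := hsup y
      have e : ⁅a * l, b * m⁆ = ⁅l, m⁆ := by
        rw [Subgroup.mem_center_iff] at ha hb
        simp only [commutatorElement_def, mul_inv_rev]
        have ha' : ∀ g, a * g = g * a := fun g => (ha g).symm
        have hb' : ∀ g, b * g = g * b := fun g => (hb g).symm
        calc a * l * (b * m) * (l⁻¹ * a⁻¹) * (m⁻¹ * b⁻¹)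
            = a * (l * (b * m) * l⁻¹) * a⁻¹ * (m⁻¹ * b⁻¹) := by group
          _ = (l * (b * m) * l⁻¹) * a * a⁻¹ * (m⁻¹ * b⁻¹) := by rw [ha']
          _ = l * (b * (m * l⁻¹ * m⁻¹)) * b⁻¹ := by group
          _ = l * ((m * l⁻¹ * m⁻¹) * b) * b⁻¹ := by rw [hb']
          _ = l * m * l⁻¹ * m⁻¹ := by group
      rw [e]
      exact L.mul_mem (L.mul_mem (L.mul_mem hl hm) (L.inv_mem hl)) (L.inv_mem hm)
    have hLtop : L = ⊤ := by
      rw [hperf] at hcomm
      exact top_le_iff.mp hcomm
    have hdis := hL.disjoint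
    rw [hLtop, disjoint_top] at hdis
    rw [hdis] at hcard
    simp at hcard

end Cfsg.Agent.LyZ
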