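import Mathlib
import Cfsg.Prelude.Def_Sporadic
import Cfsg.Prelude.Def_SporadicB
import Cfsg.Prelude.Def_Exceptional

/-!
# From an abstract group of Lyons type to the permutation group of degree 8835156
-/

set_option autoImplicit false

namespace Cfsg.Agent.LyZ

open Cfsg

namespace P7

theorem cover_equiv {H H' K : Type*} [Group H] [Group H'] [Group K] (e : H ≃* H') (h : IsNonsplitDoubleCover H K) :
    IsNonsplitDoubleCover H' K := by
  obtain ⟨h1, ⟨q⟩, h3⟩ := h
  have hc : (Subgroup.center H).map e.toMonoidHom = Subgroup.center H' := by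
    ext y
    rw [Subgroup.mem_center_iff]
    constructor
    · rintro ⟨x, hx, rfl⟩ z
      have hx : x ∈ Subgroup.center H := hx
      rw [Subgroup.mem_center_iff] at hx
      have := congrArg e (hx (e.symm z))
      simpa using this
    · intro hy
      refine ⟨e.symm y, ?_, by simp⟩
      show e.symm y ∈ Subgroup.center H
      rw [Subgroup.mem_center_iff]
      intro z
      have := congrArg e.symm (hy (e z))
      simpa using this
  refine ⟨?_, ?_, ?_⟩
  · rw [← hc, ← h1]
    exact (Nat.card_congr ((Subgroup.center H).equivMapOfInjective _ e.injective).toEquiv).symm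
  · exact ⟨(QuotientGroup.congr _ _ e hc).symm.trans q⟩
  · intro L hL
    apply h3 (L.comap e.toMonoidHom)
    have hL' : Function.Bijective (fun x : ↥((Subgroup.center H).map e.toMonoidHom) × L => (x.1 : H') * x.2) := by
      rw [hc]
      exact hL
    obtain ⟨hi, hs⟩ := hL'
    refine (show Function.Bijective (fun x : Subgroup.center H × (L.comap e.toMonoidHom) => (x.1 : H) * x.2) from
      ⟨?_, ?_⟩)
    · rintro ⟨⟨a, ha⟩, ⟨b, hb⟩⟩ ⟨⟨a', ha'⟩, ⟨b', hb'⟩⟩ hab
      have hab : a * b = a' * b' := hab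
      have h4 := @hi (⟨e a, ⟨a, ha, rfl⟩⟩, ⟨e b, hb⟩) (⟨e a', ⟨a', ha', rfl⟩⟩, ⟨e b', hb'⟩) (by
        show e a * e b = e a' * e b'
        rw [← map_mul, ← map_mul, hab])
      have h5 := congrArg (fun p => ((p.1 : H'), (p.2 : H'))) h4
      simp only [Prod.mk.injEq, EmbeddingLike.apply_eq_iff_eq] at h5
      obtain ⟨rfl, rfl⟩ := h5
      rfl
    · intro y
      obtain ⟨⟨⟨_, ⟨a, ha, rfl⟩⟩, ⟨b, hb⟩⟩, hab⟩ := hs (e y)
      have hab : e a * b = e y := hab
      refine ⟨(⟨a, ha⟩, ⟨e.symm b, by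
        show e (e.symm b) ∈ L
        rw [MulEquiv.apply_symm_apply]
        exact hb⟩), ?_⟩
      show a * e.symm b = y
      apply e.injective
      rw [map_mul, MulEquiv.apply_symm_apply]
      exact hab

/-- general version. -/
theorem main {G : Type} [Group G] [Finite G] [IsSimpleGroup G] (n : ℕ) [NeZero n] (hn : 1 < n) (H : Subgroup G)
    (hidx : H.index = n) :
    ∃ (K : Subgroup (Equiv.Perm (Fin n))) (_ : G ≃* K) (_ : H ≃* MulAction.stabilizer K (0 : Fin n)),
      MulAction.IsPretransitive K (Fin n) := by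
  classical
  have hcard : Nat.card (G ⧸ H) = n := hidx
  let e₀ : G ⧸ H ≃ Fin n := Finite.equivFinOfCardEq hcard
  let e : G ⧸ H ≃ Fin n := e₀.trans (Equiv.swap (e₀ (QuotientGroup.mk 1)) 0)
  have he : e (QuotientGroup.mk 1) = 0 := by
    show Equiv.swap (e₀ (QuotientGroup.mk 1)) 0 (e₀ (QuotientGroup.mk 1)) = 0
    rw [Equiv.swap_apply_left]
  let ρ : G →* Equiv.Perm (Fin n) := (e.permCongrHom : Equiv.Perm (G ⧸ H) →* Equiv.Perm (Fin n)).comp
    (MulAction.toPermHom G (G ⧸ H))
  have hρ : ∀ (g : G) (x : Fin n), ρ g x = e (g • e.symm x) := fun g x => rfl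
  have htr : ∀ x y : Fin n, ∃ g : G, ρ g x = y := by
    intro x y
    obtain ⟨g, hg⟩ := MulAction.exists_smul_eq G (e.symm x) (e.symm y)
    exact ⟨g, by rw [hρ, hg, e.apply_symm_apply]⟩
  have hinj : Function.Injective ρ := by
    rw [← MonoidHom.ker_eq_bot_iff]
    rcases (inferInstance : ρ.ker.Normal).eq_bot_or_eq_top with h | h
    · exact h
    · exfalso
      obtain ⟨g, hg⟩ := htr ⟨0, by omega⟩ ⟨1, hn⟩
      have h1 : g ∈ ρ.ker := by rw [h]; trivial
      rw [MonoidHom.mem_ker] at h1
      rw [h1, Equiv.Perm.one_apply] at hg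
      have := congrArg Fin.val hg
      simp at this
  let ι : G ≃* ρ.range := MonoidHom.ofInjective hinj
  have hι : ∀ g : G, ((ι g : ρ.range) : Equiv.Perm (Fin n)) = ρ g := fun g => rfl
  have hst : H.map ι.toMonoidHom = MulAction.stabilizer ρ.range (0 : Fin n) := by
    ext k
    obtain ⟨g, rfl⟩ := ι.surjective k
    rw [Subgroup.mem_map_equiv, MulEquiv.symm_apply_apply, MulAction.mem_stabilizer_iff]
    have h1 : (ι g) • (0 : Fin n) = ρ g 0 := rfl
    rw [h1, hρ]
    have h2 : e.symm 0 = QuotientGroup.mk 1 := by rw [← he, e.symm_apply_apply]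
    rw [h2]
    have h3 : g • (QuotientGroup.mk 1 : G ⧸ H) = QuotientGroup.mk g := by
      show QuotientGroup.mk (g * 1) = _
      rw [mul_one]
    rw [h3]
    constructor
    · intro hg
      have h4 : (QuotientGroup.mk g : G ⧸ H) = QuotientGroup.mk 1 := by
        rw [QuotientGroup.eq]
        simpa using hg
      rw [h4, he]
    · intro hg
      have h4 : (QuotientGroup.mk g : G ⧸ H) = QuotientGroup.mk 1 := e.injective (hg.trans he.symm)
      rw [QuotientGroup.eq] at h4
      simpa using h4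
  refine ⟨ρ.range, ι, (H.equivMapOfInjective ι.toMonoidHom ι.injective).trans (MulEquiv.subgroupCongr hst), ?_⟩
  refine ⟨fun x y => ?_⟩
  obtain ⟨g, hg⟩ := htr x y
  exact ⟨ι g, hg⟩

end P7

theorem transport {G : Type} [Group G] [Finite G] [IsSimpleGroup G] (H : Subgroup G)
    (hcard : Nat.card G = 51765179004000000) (hidx : H.index = 8835156) (hH : IsSimpleGroup H) (z : G)
    (hz : orderOf z = 2)
    (hC : Cfsg.IsNonsplitDoubleCover (Subgroup.centralizer ({z} : Set G)) (alternatingGroup (Fin 11))) :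
    ∃ H : Subgroup (Equiv.Perm (Fin 8835156)), Cfsg.IsLy H ∧ MulAction.IsPretransitive H (Fin 8835156) ∧ Cfsg.IsG2 (MulAction.stabilizer H (0 : Fin 8835156)) ∧ ∃ t : H, orderOf t = 2 ∧ Cfsg.IsNonsplitDoubleCover (Subgroup.centralizer ({t} : Set H)) (alternatingGroup (Fin 11)) := by
  obtain ⟨K, ι, σ, htr⟩ := P7.main 8835156 (by norm_num) H hidx
  have hHc : Nat.card H = 5859000000 := by
    have h1 := H.card_mul_index
    rw [hcard, hidx] at h1
    omega
  have hs : IsSimpleGroup K := by
    have : Nontrivial K := ι.symm.toEquiv.nontrivial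
    exact IsSimpleGroup.isSimpleGroup_of_surjective ι.toMonoidHom ι.surjective
  have hs2 : IsSimpleGroup (MulAction.stabilizer K (0 : Fin 8835156)) := by
    have : Nontrivial (MulAction.stabilizer K (0 : Fin 8835156)) := σ.symm.toEquiv.nontrivial
    exact IsSimpleGroup.isSimpleGroup_of_surjective σ.toMonoidHom σ.surjective
  refine ⟨K, ⟨hs, ?_⟩, htr, ⟨hs2, 5, ?_, by norm_num, ?_⟩, ι z, ?_, ?_⟩
  · rw [← hcard]
    exact (Nat.card_congr ι.toEquiv).symm
  · exact (by norm_num : Nat.Prime 5).isPrimePow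
  · rw [← Nat.card_congr σ.toEquiv, hHc]
    norm_num
  · rw [← hz]
    exact ι.orderOf_eq z
  · refine P7.cover_equiv ?_ hC
    have hc : (Subgroup.centralizer ({z} : Set G)).map ι.toMonoidHom = Subgroup.centralizer ({ι z} : Set K) := by
      ext k
      obtain ⟨g, rfl⟩ := ι.surjective k
      rw [Subgroup.mem_map_equiv, MulEquiv.symm_apply_apply, Subgroup.mem_centralizer_singleton_iff,
        Subgroup.mem_centralizer_singleton_iff, ← map_mul, ← map_mul, ι.injective.eq_iff]
    exact ((Subgroup.centralizer ({z} : Set G)).equivMapOfInjective ι.toMonoidHom ι.injective).trans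
      (MulEquiv.subgroupCongr hc)

end Cfsg.Agent.LyZ
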