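import Mathlib

/-!
# S0454, piece P8: two generated groups of odd order (helper37)
-/

set_option autoImplicit false

namespace Cfsg.Agent.LyZ

open Subgroup
open scoped commutatorElement

namespace P8

/-- a group generated by a normal subgroup of odd order and an element of odd order -/
theorem odd_top {Γ : Type*} [Group Γ] [Finite Γ] (N : Subgroup Γ) [N.Normal] (b : Γ) (hN : Odd (Nat.card N))
    (n : ℕ) (hn : Odd n) (hb : b ^ n = 1) (hgen : N ⊔ zpowers b = ⊤) : Odd (Nat.card Γ) := by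
  rw [← N.card_mul_index]
  refine hN.mul ?_
  have h1 : ∀ q : Γ ⧸ N, q ∈ zpowers (QuotientGroup.mk' N b) := by
    intro q
    obtain ⟨x, rfl⟩ := QuotientGroup.mk'_surjective N q
    have hx : x ∈ N ⊔ zpowers b := by rw [hgen]; exact mem_top x
    have h2 : (N ⊔ zpowers b).map (QuotientGroup.mk' N) = zpowers (QuotientGroup.mk' N b) := by
      rw [Subgroup.map_sup, QuotientGroup.map_mk'_self, bot_sup_eq, MonoidHom.map_zpowers]
    rw [← h2]
    exact ⟨x, hx, rfl⟩
  have h3 : Nat.card (Γ ⧸ N) ∣ n := by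
    rw [← orderOf_eq_card_of_forall_mem_zpowers h1]
    apply orderOf_dvd_of_pow_eq_one
    rw [← map_pow, hb, map_one]
  rw [Subgroup.index_eq_card]
  exact Odd.of_dvd_nat hn h3

theorem odd_sup {G : Type*} [Group G] [Finite G] (N : Subgroup G) (b : G) (hN : Odd (Nat.card N))
    (n : ℕ) (hn : Odd n) (hb : b ^ n = 1) (hnorm : ∀ x ∈ N, b * x * b⁻¹ ∈ N) :
    Odd (Nat.card ↥(N ⊔ zpowers b)) := by
  have hbN : b ∈ normalizer (N : Set G) := by
    apply Subgroup.mem_normalizer_fintype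
    exact hnorm
  have hle : N ⊔ zpowers b ≤ normalizer (N : Set G) :=
    sup_le Subgroup.le_normalizer (by rwa [zpowers_le])
  have hNn : (N.subgroupOf (N ⊔ zpowers b)).Normal :=
    (Subgroup.normal_subgroupOf_iff_le_normalizer le_sup_left).2 hle
  have hcard : Nat.card (N.subgroupOf (N ⊔ zpowers b)) = Nat.card N :=
    Nat.card_congr (Subgroup.subgroupOfEquivOfLe le_sup_left).toEquiv
  have hbm : b ∈ N ⊔ zpowers b := (le_sup_right : zpowers b ≤ _) (mem_zpowers b)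
  refine odd_top (N.subgroupOf (N ⊔ zpowers b)) ⟨b, hbm⟩ (by rw [hcard]; exact hN) n hn (Subtype.ext hb) ?_
  rw [eq_top_iff]
  intro x _
  have h1 : ((N.subgroupOf (N ⊔ zpowers b)) ⊔ zpowers (⟨b, hbm⟩ : ↥(N ⊔ zpowers b))).map
      (N ⊔ zpowers b).subtype = N ⊔ zpowers b := by
    rw [Subgroup.map_sup, Subgroup.subgroupOf_map_subtype, inf_eq_left.2 le_sup_left, MonoidHom.map_zpowers]
    rfl
  have h2 : (x : G) ∈ ((N.subgroupOf (N ⊔ zpowers b)) ⊔ zpowers (⟨b, hbm⟩ : ↥(N ⊔ zpowers b))).map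
      (N ⊔ zpowers b).subtype := by rw [h1]; exact x.2
  obtain ⟨y, hy, hyx⟩ := h2
  have : y = x := Subtype.ext hyx
  rwa [← this]

theorem odd_zpowers {G : Type*} [Group G] [Finite G] (a : G) (n : ℕ) (hn : Odd n) (ha : a ^ n = 1) :
    Odd (Nat.card ↥(zpowers a)) := by
  rw [Nat.card_zpowers]
  exact Odd.of_dvd_nat hn (orderOf_dvd_of_pow_eq_one ha)

theorem closure_le_sup {G : Type*} [Group G] (N : Subgroup G) (a b : G) (ha : a ∈ N) :
    closure ({a, b} : Set G) ≤ N ⊔ zpowers b := by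
  rw [closure_le]
  rintro x (rfl | rfl)
  · exact (le_sup_left : N ≤ _) ha
  · exact (le_sup_right : zpowers _ ≤ _) (mem_zpowers _)

end P8

theorem odd_heis {G : Type*} [Group G] [Finite G] (a b : G) (ha : a ^ 5 = 1) (hb : b ^ 5 = 1)
    (h1 : ⁅a, b⁆ * a = a * ⁅a, b⁆) (h2 : ⁅a, b⁆ * b = b * ⁅a, b⁆) :
    Odd (Nat.card ↥(Subgroup.closure ({a, b} : Set G))) := by
  have h5 : Odd 5 := by decide
  obtain ⟨c, hc⟩ : ∃ c, c = ⁅a, b⁆ := ⟨_, rfl⟩
  rw [← hc] at h1 h2
  have hconj : a * b * a⁻¹ = c * b := by rw [hc, commutatorElement_def]; group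
  have hc5 : c ^ 5 = 1 := by
    have h3 : (c * b) ^ 5 = c ^ 5 * b ^ 5 := (show Commute c b from h2).mul_pow 5
    have h4 : (a * b * a⁻¹) ^ 5 = a * b ^ 5 * a⁻¹ := conj_pow
    rw [hconj, h3, hb, mul_one, mul_one, mul_inv_cancel] at h4
    exact h4
  have hca : ∀ x ∈ zpowers c, a * x * a⁻¹ ∈ zpowers c := by
    rintro _ ⟨k, rfl⟩
    have : Commute a (c ^ k) := (show Commute a c from h1.symm).zpow_right k
    have h3 : a * c ^ k * a⁻¹ = c ^ k := by rw [this.eq, mul_inv_cancel_right]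
    show a * c ^ k * a⁻¹ ∈ zpowers c
    rw [h3]
    exact ⟨k, rfl⟩
  have hN := P8.odd_sup (zpowers c) a (P8.odd_zpowers c 5 h5 hc5) 5 h5 ha hca
  have hbn : ∀ x ∈ zpowers c ⊔ zpowers a, b * x * b⁻¹ ∈ zpowers c ⊔ zpowers a := by
    have hcM : c ∈ zpowers c ⊔ zpowers a := (le_sup_left : zpowers c ≤ _) (mem_zpowers c)
    have haM : a ∈ zpowers c ⊔ zpowers a := (le_sup_right : zpowers a ≤ _) (mem_zpowers a)
    have h6 : zpowers c ⊔ zpowers a ≤ (zpowers c ⊔ zpowers a).comap (MulAut.conj b).toMonoidHom := by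
      refine sup_le ?_ ?_
      · rw [zpowers_le, mem_comap]
        have h7 : b * c * b⁻¹ = c := by rw [← h2, mul_inv_cancel_right]
        show b * c * b⁻¹ ∈ _
        rw [h7]; exact hcM
      · rw [zpowers_le, mem_comap]
        have h7 : b * a * b⁻¹ = c⁻¹ * a := by
          rw [hc, commutatorElement_def]; group
        show b * a * b⁻¹ ∈ _
        rw [h7]; exact mul_mem (inv_mem hcM) haM
    intro x hx
    exact h6 hx
  have hM := P8.odd_sup (zpowers c ⊔ zpowers a) b hN 5 h5 hb hbn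
  have hle := P8.closure_le_sup (zpowers c ⊔ zpowers a) a b
    ((le_sup_right : zpowers a ≤ _) (mem_zpowers a))
  exact Odd.of_dvd_nat hM (Subgroup.card_dvd_of_le hle)

theorem odd_frob {G : Type*} [Group G] [Finite G] (a b : G) (ha : a ^ 7 = 1) (hb : b ^ 3 = 1)
    (hab : b * a * b⁻¹ = a ^ 2 ∨ b * a * b⁻¹ = a ^ 4) :
    Odd (Nat.card ↥(Subgroup.closure ({a, b} : Set G))) := by
  have h7 : Odd 7 := by decide
  have h3 : Odd 3 := by decide
  have hm : b * a * b⁻¹ ∈ zpowers a := by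
    rcases hab with h | h <;> rw [h] <;> exact pow_mem (mem_zpowers a) _
  have hn : ∀ x ∈ zpowers a, b * x * b⁻¹ ∈ zpowers a := by
    rintro _ ⟨k, rfl⟩
    show b * a ^ k * b⁻¹ ∈ zpowers a
    rw [← conj_zpow]
    exact zpow_mem hm k
  have hM := P8.odd_sup (zpowers a) b (P8.odd_zpowers a 7 h7 ha) 3 h3 hb hn
  exact Odd.of_dvd_nat hM (Subgroup.card_dvd_of_le (P8.closure_le_sup (zpowers a) a b (mem_zpowers a)))

end Cfsg.Agent.LyZ
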