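import Cfsg.Agent.S4279
import Cfsg.Agent.H32.SL2Five

/-!
Two perfect subgroups of the centralizer of an involution in a group of type `G₂(5)` (owner: helper32).
-/

set_option autoImplicit false

namespace Cfsg.Agent.LyZ

open Subgroup

theorem commutator_of_equiv {A B : Type*} [Group A] [Group B] (e : A ≃* B) (h : commutator B = ⊤) :
    commutator A = ⊤ := by
  have h1 : (commutator B).map (e.symm : B →* A) = commutator A := by
    rw [commutator_def, Subgroup.map_commutator, commutator_def, Subgroup.map_top_of_surjective _ e.symm.surjective]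
  rw [← h1, h, Subgroup.map_top_of_surjective _ e.symm.surjective]

theorem two_five : (2 : ZMod 5) ≠ 0 ∧ (2 : ZMod 5) ^ 2 ≠ 1 := by decide

theorem exists_L [Fact (Nat.Prime 5)] {G : Type} [Group G] [Finite G] (H : Subgroup G) (e : H ≃* ↥(Cfsg.Lie.chevG2.group (ZMod 5)))
    (z : G) (hz : z ∈ H) (hz2 : orderOf z = 2) :
    Nat.card ↥(Subgroup.centralizer {z} ⊓ H : Subgroup G) = 14400 ∧ ∃ L₁ L₂ : Subgroup G, commutator L₁ = ⊤ ∧
      commutator L₂ = ⊤ ∧ L₁ ⊔ L₂ ≤ Subgroup.centralizer {z} ⊓ H ∧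
      (L₁ ⊔ L₂).relIndex (Subgroup.centralizer {z} ⊓ H) = 2 := by
  set t : ↥(Cfsg.Lie.chevG2.group (ZMod 5)) := e ⟨z, hz⟩ with ht
  have ho : orderOf t = 2 := by
    rw [ht, e.orderOf_eq, ← Subgroup.orderOf_coe]
    exact hz2
  obtain ⟨h1, L₁, L₂, ⟨e1⟩, ⟨e2⟩, hcomm, hinf, hle, hidx⟩ := Cfsg.Agent.S4279.result (F := ZMod 5)
    (by rw [ZMod.card]; decide) t ho
  rw [ZMod.card] at h1
  -- the embedding
  let ι : ↥(Cfsg.Lie.chevG2.group (ZMod 5)) →* G := H.subtype.comp (e.symm : _ →* H)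
  have hι : Function.Injective ι := by
    intro a b hab
    exact e.symm.injective (Subtype.ext hab)
  have hC : (Subgroup.centralizer ({t} : Set ↥(Cfsg.Lie.chevG2.group (ZMod 5)))).map ι = Subgroup.centralizer {z} ⊓ H := by
    ext x
    constructor
    · rintro ⟨y, hy, rfl⟩
      refine ⟨?_, (e.symm y).2⟩
      have hy := Subgroup.mem_centralizer_singleton_iff.1 hy
      refine Subgroup.mem_centralizer_singleton_iff.2 ?_
      have h2 := congrArg ι hy
      rw [map_mul, map_mul] at h2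
      have h3 : ι t = z := by
        show ((e.symm t : H) : G) = z
        rw [ht, e.symm_apply_apply]
      rw [h3] at h2
      exact h2
    · rintro ⟨hx1, hx2⟩
      refine ⟨e ⟨x, hx2⟩, ?_, ?_⟩
      · have hx1 := Subgroup.mem_centralizer_singleton_iff.1 hx1
        refine Subgroup.mem_centralizer_singleton_iff.2 ?_
        rw [ht, ← map_mul, ← map_mul]
        congr 1
        exact Subtype.ext hx1
      · show ((e.symm (e ⟨x, hx2⟩) : H) : G) = x
        rw [e.symm_apply_apply]
  have hsl : commutator (Matrix.SpecialLinearGroup (Fin 2) (ZMod 5)) = ⊤ :=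
    Cfsg.Agent.H32.sl2_commutator_eq_top (2 : ZMod 5) two_five.1 two_five.2
  have hsup : L₁.map ι ⊔ L₂.map ι = (L₁ ⊔ L₂).map ι := (Subgroup.map_sup L₁ L₂ ι).symm
  refine ⟨?_, L₁.map ι, L₂.map ι, ?_, ?_, ?_, ?_⟩
  · rw [← hC, ← Nat.card_congr (Subgroup.equivMapOfInjective _ ι hι).toEquiv, h1]
    norm_num
  · exact commutator_of_equiv ((L₁.equivMapOfInjective ι hι).symm.trans e1) hsl
  · exact commutator_of_equiv ((L₂.equivMapOfInjective ι hι).symm.trans e2) hsl
  · rw [hsup, ← hC]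
    exact Subgroup.map_mono hle
  · rw [hsup, ← hC, Subgroup.relIndex_map_map_of_injective _ _ hι]
    exact hidx

end Cfsg.Agent.LyZ
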